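import Cfsg.Agent.Lib.H04.Aut.Pos

/-!
# Additive maps compatible with the rank one relations are semilinear
-/

set_option autoImplicit false
set_option linter.style.longLine false
set_option linter.unusedSimpArgs false
set_option linter.unusedSectionVars false
set_option linter.unusedVariables false

open Cfsg.Lie Cfsg.Agent.H04.Chev Cfsg.Agent.H04.SL2Hom

namespace Cfsg.Agent.H04.AutT

variable {F : Type*} [Field F]

lemma I1 {t : F} (ht : t ≠ 0) (s : F) : up t * lo (-t⁻¹) * up t * up s = lo (-s * t⁻¹ * t⁻¹) * (up t * lo (-t⁻¹) * up t) := by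
  apply ext2 <;> simp only [mul_assoc, up_mul_00, up_mul_01, up_mul_10, up_mul_11, lo_mul_00, lo_mul_01, lo_mul_10, lo_mul_11] <;> simp [up, lo] <;> (try field_simp) <;> (try ring) <;> (try simp)

lemma I2 (a b c : F) (hb : b ≠ 0) (hc : c = a + b⁻¹) (hc0 : c ≠ 0) :
    up a * lo b * up a * up 1 = lo c⁻¹ * up (c * c * (b * b)) * lo (-c⁻¹) * (up a * lo b * up a) := by
  have ha : a = c - b⁻¹ := by rw [hc]; ring
  subst ha
  apply ext2 <;> simp only [mul_assoc, up_mul_00, up_mul_01, up_mul_10, up_mul_11, lo_mul_00, lo_mul_01, lo_mul_10, lo_mul_11] <;> simp [up, lo] <;> (try field_simp) <;> (try ring) <;> (try simp)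

lemma I4 {c : F} (hc : c ≠ 0) (v : F) : up c * lo v = lo c⁻¹ * up (-(c * c * v)) * lo (-c⁻¹) * up c := by
  apply ext2 <;> simp only [mul_assoc, up_mul_00, up_mul_01, up_mul_10, up_mul_11, lo_mul_00, lo_mul_01, lo_mul_10, lo_mul_11] <;> simp [up, lo] <;> (try field_simp) <;> (try ring) <;> (try simp)

/-- additive maps compatible with the relations -/
theorem ring_of [Finite F] {φ ψ : F → F} (hφa : ∀ x y, φ (x + y) = φ x + φ y) (hb : Function.Bijective φ)
    (h : ∀ t, t ≠ 0 → ∀ s, ψ (s * t⁻¹ * t⁻¹) = φ s * (φ t)⁻¹ * (φ t)⁻¹) :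
    ∃ (c : Fˣ) (σ : F ≃+* F), ∀ t, φ t = c * σ t ∧ ψ t = (c⁻¹ : Fˣ) * σ t := by
  have hφ0 : φ 0 = 0 := by
    have := hφa 0 0
    simpa using this
  have hne : ∀ t, t ≠ 0 → φ t ≠ 0 := fun t ht e => ht (hb.1 (e.trans hφ0.symm))
  set c0 := φ 1 with hc0
  have hc0n : c0 ≠ 0 := hne 1 one_ne_zero
  have hψ : ∀ s, ψ s = φ s * c0⁻¹ * c0⁻¹ := by
    intro s
    have := h 1 one_ne_zero s
    simpa using this
  let f : F → F := fun x => c0⁻¹ * φ x
  have hφf : ∀ x, φ x = c0 * f x := by
    intro x
    simp only [f]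
    field_simp
  have hfa : ∀ x y, f (x + y) = f x + f y := by
    intro x y
    simp only [f, hφa]
    ring
  have hf0 : f 0 = 0 := by simp [f, hφ0]
  have hf1 : f 1 = 1 := by
    simp only [f]
    rw [← hc0]
    field_simp
  have hfn : ∀ x, f (-x) = - f x := by
    intro x
    have h1 := hfa x (-x)
    rw [add_neg_cancel, hf0] at h1
    exact (neg_eq_of_add_eq_zero_right h1.symm).symm
  have hfne : ∀ t, t ≠ 0 → f t ≠ 0 := fun t ht => mul_ne_zero (inv_ne_zero hc0n) (hne t ht)
  have hf : ∀ t, t ≠ 0 → ∀ s, f (s * t⁻¹ * t⁻¹) = f s * (f t)⁻¹ * (f t)⁻¹ := by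
    intro t ht s
    have h1 := h t ht s
    rw [hψ, hφf, hφf s, hφf t] at h1
    have h2 := hfne t ht
    field_simp at h1 ⊢
    linear_combination h1
  have hf2 : ∀ u, f (u * u) = f u * f u := by
    intro u
    by_cases hu : u = 0
    · subst hu
      simp [hf0]
    · have h1 := hf u hu (u * u)
      have e : u * u * u⁻¹ * u⁻¹ = 1 := by field_simp
      rw [e, hf1] at h1
      have h2 := hfne u hu
      field_simp at h1
      simpa [sq] using h1.symm
  have hf3 : ∀ s u, f (s * (u * u)) = f s * f (u * u) := by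
    intro s u
    by_cases hu : u = 0
    · subst hu
      simp [hf0]
    · have hui : u⁻¹ ≠ 0 := inv_ne_zero hu
      have h1 := hf u⁻¹ hui s
      have h2 := hf u⁻¹ hui 1
      rw [inv_inv, mul_assoc] at h1
      rw [inv_inv, one_mul, hf1, one_mul] at h2
      rw [h1, mul_assoc, h2]
  have hmul : ∀ s t, f (s * t) = f s * f t := by
    intro s t
    by_cases h2 : (2 : F) = 0
    · have hchar : ringChar F = 2 := by
        have h3 : ringChar F ∣ 2 := (ringChar.spec F 2).mp (by exact_mod_cast h2)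
        rcases (Nat.dvd_prime Nat.prime_two).mp h3 with h4 | h4
        · exact absurd h4 CharP.ringChar_ne_one
        · exact h4
      obtain ⟨r, rfl⟩ := FiniteField.isSquare_of_char_two hchar t
      exact hf3 s r
    · set a := (t + 1) / 2 with ha
      set b := (t - 1) / 2 with hb'
      have e : t = a * a + -(b * b) := by
        rw [ha, hb']
        field_simp
        ring
      have e2 : s * t = s * (a * a) + -(s * (b * b)) := by
        rw [e]
        ring
      rw [e2, hfa, hfn, hf3, hf3]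
      conv_rhs => rw [e]
      rw [hfa, hfn]
      ring
  have hfb : Function.Bijective f := by
    constructor
    · intro x y e
      apply hb.1
      rw [hφf, hφf, e]
    · intro y
      obtain ⟨x, hx⟩ := hb.2 (c0 * y)
      refine ⟨x, ?_⟩
      simp only [f]
      rw [hx]
      field_simp
  let σ : F ≃+* F := RingEquiv.ofBijective ({ toFun := f, map_one' := hf1, map_mul' := hmul, map_zero' := hf0, map_add' := hfa } : F →+* F) hfb
  refine ⟨Units.mk0 c0 hc0n, σ, ?_⟩
  intro t
  have e : σ t = f t := rfl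
  rw [e]
  constructor
  · exact hφf t
  · rw [hψ, hφf]
    simp only [Units.val_inv_eq_inv_val, Units.val_mk0]
    field_simp

end Cfsg.Agent.H04.AutT
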