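import Cfsg.Agent.Lib.H04.Aut.Root

/-!
# Standard automorphisms permute the fundamental root subgroups
-/

set_option autoImplicit false
set_option linter.style.longLine false
set_option linter.unusedSimpArgs false
set_option linter.unusedSectionVars false
set_option linter.unusedVariables false

open Cfsg.Lie Cfsg.Agent.H04.Chev Cfsg.Agent.H04.Tw Cfsg.Agent.H04.SL2Hom Cfsg.Agent.H02.BN

namespace Cfsg.Agent.H04.AutT

section Generic
variable {G : Type*} [Group G] (P : Cfsg.BNPair G)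

lemma not_mem_B {s : G} (hs : s ∈ P.S) : s ∉ P.B := by
  intro h
  have h1 : s ∈ P.parabolic (∅ : Set G) := B_le_parabolic _ h
  exact letter (Set.empty_subset _) hs h1

lemma par_eq_B {M : Subgroup G} (hM : P.B ≤ M) (h : P.S ∩ (M : Set G) = ∅) : M = P.B := by
  have h1 := parabolic_inter_eq M hM
  rw [h] at h1
  rw [h1, parabolic_def]
  simp

/-- an overgroup of `B` inside a minimal parabolic -/
lemma par_min {M : Subgroup G} (hM : P.B ≤ M) {s : G} (hs : s ∈ P.S) (hle : M ≤ P.parabolic {s}) {x : G} (hx : x ∈ M) (hxB : x ∉ P.B) :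
    M = P.parabolic {s} := by
  apply le_antisymm hle
  have h1 : (P.S ∩ (M : Set G)).Nonempty := by
    rw [Set.nonempty_iff_ne_empty]
    intro h2
    have := par_eq_B P hM h2
    rw [this] at hx
    exact hxB hx
  obtain ⟨s', hs', hs'M⟩ := h1
  have h3 := letter (J := {s}) (by simpa using hs) hs' (hle hs'M)
  have h4 : s' = s := h3
  subst h4
  rw [parabolic_def]
  refine sup_le hM ?_
  rw [Subgroup.closure_le]
  simpa using hs'M

theorem par_map (θ : G ≃* G) (hB : ∀ g, θ g ∈ P.B ↔ g ∈ P.B) {s : G} (hs : s ∈ P.S) :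
    ∃ s' ∈ P.S, ∀ g, g ∈ P.parabolic {s} ↔ θ g ∈ P.parabolic {s'} := by
  have hBs : ∀ g, θ.symm g ∈ P.B ↔ g ∈ P.B := by
    intro g
    rw [← hB]
    simp
  let Q : Subgroup G := (P.parabolic {s}).comap θ.symm.toMonoidHom
  have hmemQ : ∀ g, g ∈ Q ↔ θ.symm g ∈ P.parabolic {s} := fun g => Iff.rfl
  have hBQ : P.B ≤ Q := by
    intro b hb
    rw [hmemQ]
    exact B_le_parabolic _ ((hBs b).mpr hb)
  have hsnB := not_mem_B P hs
  have hne : (P.S ∩ (Q : Set G)).Nonempty := by
    rw [Set.nonempty_iff_ne_empty]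
    intro h2
    have h3 := par_eq_B P hBQ h2
    have h4 : θ s ∈ Q := by
      rw [hmemQ]
      simp only [MulEquiv.symm_apply_apply]
      exact closure_le_parabolic _ (Subgroup.subset_closure rfl)
    rw [h3, hB] at h4
    exact hsnB h4
  obtain ⟨s', hs', hs'Q⟩ := hne
  refine ⟨s', hs', ?_⟩
  let R : Subgroup G := (P.parabolic {s'}).comap θ.toMonoidHom
  have hmemR : ∀ g, g ∈ R ↔ θ g ∈ P.parabolic {s'} := fun g => Iff.rfl
  have hBR : P.B ≤ R := by
    intro b hb
    rw [hmemR]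
    exact B_le_parabolic _ ((hB b).mpr hb)
  have hle' : P.parabolic {s'} ≤ Q := by
    rw [parabolic_def]
    refine sup_le hBQ ?_
    rw [Subgroup.closure_le]
    simpa using hs'Q
  have hRle : R ≤ P.parabolic {s} := by
    intro g hg
    have := hle' ((hmemR g).mp hg)
    rw [hmemQ] at this
    simpa using this
  have hx : θ.symm s' ∈ R := by
    rw [hmemR]
    simp only [MulEquiv.apply_symm_apply]
    exact closure_le_parabolic _ (Subgroup.subset_closure rfl)
  have hxB : θ.symm s' ∉ P.B := by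
    rw [hBs]
    exact not_mem_B P hs'
  have hR := par_min P hBR hs hRle hx hxB
  intro g
  rw [← hmemR, hR]

lemma par_union {s : G} (hs : s ∈ P.S) {g : G} (h : g ∈ P.parabolic {s}) : g ∈ P.B ∨ ∃ b ∈ P.B, ∃ b' ∈ P.B, g = b * s * b' := by
  have h1 : P.parabolic {s} ≤ unionSubgroup hs := by
    rw [parabolic_def]
    refine sup_le (fun b hb => Or.inl hb) ?_
    rw [Subgroup.closure_le]
    intro x hx
    have e : x = s := hx
    subst e
    exact Or.inr ⟨1, one_mem _, 1, one_mem _, by simp⟩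
  exact h1 h

end Generic

variable {D : ChevalleyDatum} {T : Tabs} {U : Tabs3}

section
variable (C : Checks D T) (C2 : Checks2 D T) (C3 : Checks3 D T U)
variable {F : Type*} [Field F]

lemma mem_PB {g : ↥(D.group F)} : g ∈ (bnPair C C2 C3 F).B ↔ g.1 ∈ D.borelSubgroup F := Iff.rfl

/-- the fundamental element of the pair -/
lemma nS_mem {i : ℕ} (hi : i < D.rank) : nS C F hi ∈ (bnPair C C2 C3 F).S :=
  (mem_SS C).mpr ⟨i, hi, rfl⟩

include C C2 C3 in
/-- `n_p` does not normalise `U` -/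
lemma nS_not_normal {i : ℕ} (hi : i < D.rank) : nG C (D.simple i) (1 : F) ∉ Subgroup.normalizer (D.posUnipotent F : Set (GL D.Idx F)) := by
  intro h
  have hp := C.simple_lt i hi
  have hp0 := C3.simple_pos i hi
  have h1 : xG C (D.simple i) (1 : F) ∈ D.posUnipotent F := xG_mem_pos C ((C2.pos_iff _).mpr ⟨hp0, hp⟩) _
  have h2 := (Subgroup.mem_normalizer_iff.mp h _).mp h1
  have e := conj_nG_self (F := F) C C3 hi 1
  rw [e, mul_inv_cancel_right] at h2
  have h3 : xG C (negF D (D.simple i)) (-1 : F) ∈ D.negUnipotent F := xG_mem_neg C ((C2.neg_iff _).mpr (negF_neg C2 hp0 hp)) _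
  have h4 := U_inf_V C C2 C3 h2 h3
  have h5 := congrArg Units.val h4
  rw [xG_val, Units.val_one, x_eq_one_iff C C2 (negF_lt hp)] at h5
  exact neg_ne_zero.mpr one_ne_zero h5

include C C2 C3 in
/-- `B` is the normaliser of `U` -/
theorem mem_B_of_normal {g : ↥(D.group F)} (h : g.1 ∈ Subgroup.normalizer (D.posUnipotent F : Set (GL D.Idx F))) : g.1 ∈ D.borelSubgroup F := by
  let M : Subgroup ↥(D.group F) := (Subgroup.normalizer (D.posUnipotent F : Set (GL D.Idx F))).subgroupOf (D.group F)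
  have hM : (bnPair C C2 C3 F).B ≤ M := by
    intro b hb
    exact borel_le_normalizer_pos C C2 C3 hb
  have h1 := par_eq_B (bnPair C C2 C3 F) hM (by
    rw [Set.eq_empty_iff_forall_notMem]
    rintro s ⟨hs, hsM⟩
    obtain ⟨i, hi, e⟩ := (mem_SS C).mp hs
    have : s.1 ∈ Subgroup.normalizer (D.posUnipotent F : Set (GL D.Idx F)) := hsM
    rw [e] at this
    exact nS_not_normal C C2 C3 hi this)
  have h2 : g ∈ M := h
  rw [h1] at h2
  exact h2

/-- symmetric form -/
lemma Std.symm {θ : ↥(D.group F) ≃* ↥(D.group F)} (h : Std θ) : Std θ.symm := by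
  constructor
  · intro g
    rw [← h.pos]
    simp
  · intro g
    rw [← h.neg]
    simp

include C in
lemma Std.borel_aux {θ : ↥(D.group F) ≃* ↥(D.group F)} (h : Std θ) {g : ↥(D.group F)}
    (hg : g.1 ∈ Subgroup.normalizer (D.posUnipotent F : Set (GL D.Idx F))) :
    (θ g).1 ∈ Subgroup.normalizer (D.posUnipotent F : Set (GL D.Idx F)) := by
  have hUG : D.posUnipotent F ≤ D.group F := U_le_group C
  rw [Subgroup.mem_normalizer_iff]
  intro x
  by_cases hx : x ∈ D.group F
  · have e1 : x = (θ (θ.symm ⟨x, hx⟩)).1 := by simp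
    have e2 : (θ g).1 * x * ((θ g).1)⁻¹ = (θ (g * θ.symm ⟨x, hx⟩ * g⁻¹)).1 := by
      simp
    rw [e2]
    conv_lhs => rw [e1]
    rw [h.pos, h.pos]
    exact Subgroup.mem_normalizer_iff.mp hg _
  · have h1 : x ∉ D.posUnipotent F := fun h2 => hx (hUG h2)
    have h2 : (θ g).1 * x * ((θ g).1)⁻¹ ∉ D.posUnipotent F := by
      intro h3
      apply hx
      have h4 := hUG h3
      have e : x = ((θ g).1)⁻¹ * ((θ g).1 * x * ((θ g).1)⁻¹) * (θ g).1 := by group
      rw [e]
      exact mul_mem (mul_mem (inv_mem (θ g).2) h4) (θ g).2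
    simp [h1, h2]

include C C2 C3 in
theorem Std.borel {θ : ↥(D.group F) ≃* ↥(D.group F)} (h : Std θ) (g : ↥(D.group F)) :
    (θ g).1 ∈ D.borelSubgroup F ↔ g.1 ∈ D.borelSubgroup F := by
  constructor
  · intro hg
    have h1 := Std.borel_aux C (Std.symm h) (g := θ g) (borel_le_normalizer_pos C C2 C3 hg)
    simp only [MulEquiv.symm_apply_apply] at h1
    exact mem_B_of_normal C C2 C3 h1
  · intro hg
    exact mem_B_of_normal C C2 C3 (Std.borel_aux C h (borel_le_normalizer_pos C C2 C3 hg))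

include C C2 C3 in
/-- an element of a minimal parabolic in `V` is in the root subgroup -/
theorem neg_par {i : ℕ} (hi : i < D.rank) (g : ↥(D.group F)) :
    (g ∈ (bnPair C C2 C3 F).parabolic {nS C F hi} ∧ g.1 ∈ D.negUnipotent F) ↔ ∃ t : F, g.1 = xG C (negF D (D.simple i)) t := by
  have hp := C.simple_lt i hi
  have hp0 := C3.simple_pos i hi
  have hn := nS_mem C C2 C3 (F := F) hi
  have hnm : nG C (D.simple i) (1 : F) ∈ D.monomialSubgroup F := nG_mem_monomial C hp
  constructor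
  · rintro ⟨h1, h2⟩
    rcases par_union _ hn h1 with h3 | ⟨⟨b, hbG⟩, hb, ⟨b', hb'G⟩, hb', e⟩
    · refine ⟨0, ?_⟩
      rw [xG_zero]
      have h4 : g.1 ∈ D.borelSubgroup F ⊓ D.negUnipotent F := ⟨h3, h2⟩
      rw [borel_inf_neg C C2 C3] at h4
      exact h4
    · have e0 : g.1 = b * nG C (D.simple i) 1 * b' := congrArg Subtype.val e
      have hb1 : b ∈ D.borelSubgroup F := hb
      have hb2 : b' ∈ D.borelSubgroup F := hb'
      obtain ⟨u, hu, k, hk, e1⟩ := (mem_borel_iff C C2 C3).mp (inv_mem hb2)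
      obtain ⟨u₁, hu₁, τ, e2⟩ := (mem_pos_iff C C2 C3 hi).mp (inv_mem hu)
      set n := nG C (D.simple i) (1 : F) with hndef
      have hkn : n * k⁻¹ * n⁻¹ ∈ D.diagonalSubgroup F := N_conj_H C C3 hnm (inv_mem hk)
      have hun : n * u₁ * n⁻¹ ∈ RS C (Pp D i) F := (Subgroup.mem_normalizer_iff.mp (nG_p_normalizer C C2 C3 hi (a := (1 : F))) u₁).mp hu₁
      have hunU : n * u₁ * n⁻¹ ∈ D.posUnipotent F := RS_le_B' C C2 (fun r hr => hr.1) hun
      set b₃ := b * (n * k⁻¹ * n⁻¹) * (n * u₁ * n⁻¹) with hb₃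
      have hb₃B : b₃ ∈ D.borelSubgroup F := mul_mem (mul_mem hb1 (H_le_B hkn)) (U_le_B hunU)
      have e3 : g.1 = b₃ * n * xG C (D.simple i) τ := by
        have e4 : b' = k⁻¹ * (u₁ * xG C (D.simple i) τ) := by
          rw [← e2]
          have : b' = (u * k)⁻¹ := by rw [← e1, inv_inv]
          rw [this]
          group
        rw [e0, e4, hb₃]
        group
      by_cases hτ : τ = 0
      · exfalso
        subst hτ
        rw [xG_zero, mul_one] at e3
        have hy : xG C (negF D (D.simple i)) (-1 : F) ∈ D.negUnipotent F := xG_mem_neg C ((C2.neg_iff _).mpr (negF_neg C2 hp0 hp)) _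
        have h5 : g.1 * xG C (negF D (D.simple i)) (-1 : F) * (g.1)⁻¹ ∈ D.negUnipotent F := mul_mem (mul_mem h2 hy) (inv_mem h2)
        have h6 : xG C (D.simple i) (1 : F) ∈ D.posUnipotent F := xG_mem_pos C ((C2.pos_iff _).mpr ⟨hp0, hp⟩) _
        have h7 : n * n ∈ D.diagonalSubgroup F := by
          rw [hndef, nG_sq C hp]
          exact hG_mem_diagonal C hp (neg_ne_zero.mpr one_ne_zero)
        have h8 := (Subgroup.mem_normalizer_iff.mp (H_le_normalizer_pos C C2 C3 h7) _).mp h6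
        have h9 := (Subgroup.mem_normalizer_iff.mp (borel_le_normalizer_pos C C2 C3 hb₃B) _).mp h8
        have e5 : xG C (negF D (D.simple i)) (-1 : F) = n * xG C (D.simple i) (1 : F) * n⁻¹ := by
          rw [hndef, conj_nG_self C C3 hi, mul_inv_cancel_right]
        have e6 : g.1 * xG C (negF D (D.simple i)) (-1 : F) * (g.1)⁻¹ = b₃ * (n * n * xG C (D.simple i) (1 : F) * (n * n)⁻¹) * b₃⁻¹ := by
          rw [e5, e3]
          group
        rw [e6] at h5
        have h10 := U_inf_V C C2 C3 h9 h5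
        have h11 : xG C (D.simple i) (1 : F) = 1 := by
          have : xG C (D.simple i) (1 : F) = (n * n)⁻¹ * (b₃⁻¹ * (b₃ * (n * n * xG C (D.simple i) (1 : F) * (n * n)⁻¹) * b₃⁻¹) * b₃) * (n * n) := by group
          rw [this, h10]
          group
        have h12 := congrArg Units.val h11
        rw [xG_val, Units.val_one, x_eq_one_iff C C2 hp] at h12
        exact one_ne_zero h12
      · have e7 := x_neg_eq (F := F) C C3 hi (v := τ⁻¹) (inv_ne_zero hτ)
        rw [inv_inv, ← hndef] at e7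
        have hm : hG C (D.simple i) (-τ) ∈ D.diagonalSubgroup F := hG_mem_diagonal C hp (neg_ne_zero.mpr hτ)
        have hxτ : xG C (D.simple i) τ ∈ D.posUnipotent F := xG_mem_pos C ((C2.pos_iff _).mpr ⟨hp0, hp⟩) _
        set b₄ := b₃ * (hG C (D.simple i) (-τ))⁻¹ * (xG C (D.simple i) τ)⁻¹ with hb₄
        have hb₄B : b₄ ∈ D.borelSubgroup F := mul_mem (mul_mem hb₃B (inv_mem (H_le_B hm))) (inv_mem (U_le_B hxτ))
        have e8 : g.1 = b₄ * xG C (negF D (D.simple i)) τ⁻¹ := by
          rw [e3, e7, hb₄]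
          group
        have hy : xG C (negF D (D.simple i)) τ⁻¹ ∈ D.negUnipotent F := xG_mem_neg C ((C2.neg_iff _).mpr (negF_neg C2 hp0 hp)) _
        have hb₄V : b₄ ∈ D.negUnipotent F := by
          have : b₄ = g.1 * (xG C (negF D (D.simple i)) τ⁻¹)⁻¹ := by rw [e8]; group
          rw [this]
          exact mul_mem h2 (inv_mem hy)
        have h4 : b₄ ∈ D.borelSubgroup F ⊓ D.negUnipotent F := ⟨hb₄B, hb₄V⟩
        rw [borel_inf_neg C C2 C3] at h4
        have h5 : b₄ = 1 := h4
        refine ⟨τ⁻¹, ?_⟩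
        rw [e8, h5, one_mul]
  · rintro ⟨t, ht⟩
    refine ⟨?_, ?_⟩
    · by_cases h0 : t = 0
      · subst h0
        rw [xG_zero] at ht
        have : g = 1 := Subtype.ext ht
        rw [this]
        exact one_mem _
      · have e7 := x_neg_eq (F := F) C C3 hi (v := t) h0
        have hm : hG C (D.simple i) (-t⁻¹) ∈ D.diagonalSubgroup F := hG_mem_diagonal C hp (neg_ne_zero.mpr (inv_ne_zero h0))
        have hxτ : xG C (D.simple i) t⁻¹ ∈ D.posUnipotent F := xG_mem_pos C ((C2.pos_iff _).mpr ⟨hp0, hp⟩) _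
        have hmG : hG C (D.simple i) (-t⁻¹) ∈ D.group F := H_le_group C hm
        let a₁ : ↥(D.group F) := ⟨xG C (D.simple i) t⁻¹ * hG C (D.simple i) (-t⁻¹), mul_mem (xG_mem_group C hp _) hmG⟩
        let a₂ : ↥(D.group F) := ⟨xG C (D.simple i) t⁻¹, xG_mem_group C hp _⟩
        have e8 : g = a₁ * nS C F hi * a₂ := by
          apply Subtype.ext
          rw [ht, e7]
          show _ = xG C (D.simple i) t⁻¹ * hG C (D.simple i) (-t⁻¹) * nG C (D.simple i) 1 * xG C (D.simple i) t⁻¹
          group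
        rw [e8]
        have h1 : a₁ ∈ (bnPair C C2 C3 F).parabolic {nS C F hi} :=
          B_le_parabolic _ (show a₁.1 ∈ D.borelSubgroup F from mul_mem (U_le_B hxτ) (H_le_B hm))
        have h2 : a₂ ∈ (bnPair C C2 C3 F).parabolic {nS C F hi} :=
          B_le_parabolic _ (show a₂.1 ∈ D.borelSubgroup F from U_le_B hxτ)
        have h3 : nS C F hi ∈ (bnPair C C2 C3 F).parabolic {nS C F hi} :=
          closure_le_parabolic _ (Subgroup.subset_closure rfl)
        exact mul_mem (mul_mem h1 h3) h2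
    · rw [ht]
      exact xG_mem_neg C ((C2.neg_iff _).mpr (negF_neg C2 hp0 hp)) _

include C C2 C3 in
/-- a standard automorphism permutes the negative fundamental root subgroups -/
theorem rootmap_neg {θ : ↥(D.group F) ≃* ↥(D.group F)} (h : Std θ) {i : ℕ} (hi : i < D.rank) :
    ∃ j, j < D.rank ∧ ∀ g : ↥(D.group F), (∃ t : F, g.1 = xG C (negF D (D.simple i)) t) ↔ (∃ t : F, (θ g).1 = xG C (negF D (D.simple j)) t) := by
  obtain ⟨s', hs', hm⟩ := par_map (bnPair C C2 C3 F) θ (Std.borel C C2 C3 h) (nS_mem C C2 C3 (F := F) hi)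
  obtain ⟨j, hj, e⟩ := (mem_SS C).mp hs'
  have e' : s' = nS C F hj := Subtype.ext e
  subst e'
  refine ⟨j, hj, fun g => ?_⟩
  rw [← neg_par C C2 C3 hi, ← neg_par C C2 C3 hj, hm, h.neg]

end

end Cfsg.Agent.H04.AutT
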