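import Cfsg.Agent.Lib.H04.Aut.Par

/-!
# The permutation of the fundamental roots and the semilinear maps
-/

set_option autoImplicit false
set_option linter.style.longLine false
set_option linter.unusedSimpArgs false
set_option linter.unusedSectionVars false
set_option linter.unusedVariables false

open Cfsg.Lie Cfsg.Agent.H04.Chev Cfsg.Agent.H04.Tw Cfsg.Agent.H04.SL2Hom Cfsg.Agent.H02.BN

namespace Cfsg.Agent.H04.AutT

/-- table checks needed for the automorphism theorem -/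
structure AutTab (D : ChevalleyDatum) (T : Tabs) (U : Tabs3) : Prop where
  simple_inj : ∀ i, i < D.rank → ∀ j, j < D.rank → D.simple i = D.simple j → i = j
  star1 : ∀ j, j < D.rank → ∃ l, l < D.rank ∧ applyW D T U.w0 (negF D (D.simple j)) = D.simple l
  star2 : ∀ k, k < D.rank → ∃ i, i < D.rank ∧ applyW D T U.w0 (negF D (D.simple i)) = D.simple k
  free : ∀ i, i < D.rank → ∀ j, j < D.rank → i ≠ j → D.commTerms (D.simple i) (negF D (D.simple j)) = []
  comm0 : ∀ i, i < D.rank → ∀ j, j < D.rank → i ≠ j → D.bonds i j = 0 → D.commTerms (D.simple i) (D.simple j) = []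
  w_ne : ∀ i, i < D.rank → ∀ j, j < D.rank → i ≠ j → D.bonds i j ≠ 0 → T.w (D.simple j) (D.simple i) ≠ D.simple i
  w_pos : ∀ i, i < D.rank → ∀ j, j < D.rank → i ≠ j → D.nroots / 2 ≤ T.w (D.simple j) (D.simple i) ∧ T.w (D.simple j) (D.simple i) < D.nroots

variable {D : ChevalleyDatum} {T : Tabs} {U : Tabs3}

section
variable (C : Checks D T) (C2 : Checks2 D T) (C3 : Checks3 D T U) (A : AutTab D T U)
variable {F : Type*} [Field F]

include C C2 C3 A in
lemma comm_fund {i j : ℕ} (hi : i < D.rank) (hj : j < D.rank) (hij : i ≠ j) (t u : F) :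
    xG C (negF D (D.simple j)) u * xG C (D.simple i) t = xG C (D.simple i) t * xG C (negF D (D.simple j)) u := by
  have hpi := C.simple_lt i hi
  have hpj := C.simple_lt j hj
  have h0 := C3.simple_pos i hi
  have h1 : negF D (D.simple j) ≠ D.simple i := by
    have := negF_neg C2 (C3.simple_pos j hj) hpj
    omega
  have h2 : negF D (D.simple j) ≠ negF D (D.simple i) := by
    intro e
    have e2 := congrArg (negF D) e
    rw [negF_negF C2 hpj, negF_negF C2 hpi] at e2
    exact hij (A.simple_inj i hi j hj e2.symm)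
  have e := xG_comm (F := F) C hpi (negF_lt hpj) h1 h2 t u
  have e2 : D.commWord F (D.simple i) (negF D (D.simple j)) t u = [] := by
    unfold Cfsg.Lie.ChevalleyDatum.commWord
    rw [A.free i hi j hj hij]
    rfl
  rw [e2] at e
  simpa using e

include C C2 in
lemma xG_root_inj {r s : ℕ} (hr0 : D.nroots / 2 ≤ r) (hr : r < D.nroots) (hs0 : D.nroots / 2 ≤ s) (hs : s < D.nroots) {t u : F}
    (h : xG C r t = xG C s u) (ht : t ≠ 0) : r = s := by
  by_contra hne
  rcases lt_or_gt_of_ne hne with h1 | h1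
  · apply ht
    apply eq_zero_of_xG_mem C C2 hr0 hr
    rw [h]
    exact xG_mem_Vfrom C h1 hs u
  · have h2 : u = 0 := by
      apply eq_zero_of_xG_mem C C2 hs0 hs
      rw [← h]
      exact xG_mem_Vfrom C h1 hr t
    subst h2
    rw [xG_zero] at h
    have h3 := congrArg Units.val h
    rw [xG_val, Units.val_one, x_eq_one_iff C C2 hr] at h3
    exact ht h3

include C C2 C3 in
lemma w0_maps : ∃ (N₀ : ↥(D.group F)) (d : ℕ → Fˣ), N₀.1 ∈ D.monomialSubgroup F ∧
    (∀ x : GL D.Idx F, x ∈ D.posUnipotent F ↔ N₀.1 * x * (N₀.1)⁻¹ ∈ D.negUnipotent F) ∧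
    (∀ x : GL D.Idx F, x ∈ D.negUnipotent F ↔ N₀.1 * x * (N₀.1)⁻¹ ∈ D.posUnipotent F) ∧
    (∀ s, s < D.nroots → ∀ t : F, N₀.1 * xG C s t * (N₀.1)⁻¹ = xG C (applyW D T U.w0 s) ((d s : F) * t)) := by
  obtain ⟨π', d, h⟩ := NAct_word (F := F) C C3.w0_lt
  have hn : nWordG C F U.w0 ∈ D.monomialSubgroup F := nWordG_mem C C3 C3.w0_lt
  refine ⟨⟨nWordG C F U.w0, N_le_group C hn⟩, d, hn, ?_, ?_, fun s hs t => h.conj s hs t⟩
  · have hm : (D.posUnipotent F).map (MulAut.conj (nWordG C F U.w0)).toMonoidHom = D.negUnipotent F := by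
      rw [pos_eq_RS C, neg_eq_RS C]
      apply h.map_RS
      intro s hs
      rw [C2.pos_iff, C2.neg_iff]
      constructor
      · rintro ⟨h1, _⟩
        by_contra h2
        have := (w0_spec C C2 C3 h (h.lt s hs)).mpr
        have h4 := C3.w0 s h1 hs
        omega
      · intro h1
        refine ⟨?_, hs⟩
        by_contra h2
        have := (w0_spec C C2 C3 h hs).mp (not_le.mp h2)
        omega
    intro x
    rw [← hm]
    exact (Subgroup.mem_map_iff_mem (f := (MulAut.conj (nWordG C F U.w0)).toMonoidHom) (MulEquiv.injective _)).symm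
  · have hm : (D.negUnipotent F).map (MulAut.conj (nWordG C F U.w0)).toMonoidHom = D.posUnipotent F := by
      rw [pos_eq_RS C, neg_eq_RS C]
      apply h.map_RS
      intro s hs
      rw [C2.pos_iff, C2.neg_iff]
      constructor
      · intro h1
        refine ⟨?_, h.lt s hs⟩
        by_contra h2
        have := (w0_spec C C2 C3 h hs).mp h1
        omega
      · rintro ⟨h1, _⟩
        by_contra h2
        have h3 := C3.w0 s (not_lt.mp h2) hs
        have := (w0_spec C C2 C3 h hs).mpr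
        omega
    intro x
    rw [← hm]
    exact (Subgroup.mem_map_iff_mem (f := (MulAut.conj (nWordG C F U.w0)).toMonoidHom) (MulEquiv.injective _)).symm

/-- the twist by an element -/
def twE (θ : ↥(D.group F) ≃* ↥(D.group F)) (N : ↥(D.group F)) : ↥(D.group F) ≃* ↥(D.group F) :=
  (MulAut.conj N).trans (θ.trans (MulAut.conj N⁻¹))

lemma twE_apply (θ : ↥(D.group F) ≃* ↥(D.group F)) (N g : ↥(D.group F)) : twE θ N g = N⁻¹ * θ (N * g * N⁻¹) * N := by
  simp [twE, MulEquiv.trans_apply, MulAut.conj_apply]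

lemma twE_conj (θ : ↥(D.group F) ≃* ↥(D.group F)) (N g : ↥(D.group F)) : N.1 * (twE θ N g).1 * (N.1)⁻¹ = (θ (N * g * N⁻¹)).1 := by
  rw [twE_apply]
  show N.1 * ((N.1)⁻¹ * (θ (N * g * N⁻¹)).1 * N.1) * (N.1)⁻¹ = _
  group

lemma twE_std {θ : ↥(D.group F) ≃* ↥(D.group F)} (h : Std θ) {N : ↥(D.group F)}
    (hU : ∀ x : GL D.Idx F, x ∈ D.posUnipotent F ↔ N.1 * x * (N.1)⁻¹ ∈ D.negUnipotent F)
    (hV : ∀ x : GL D.Idx F, x ∈ D.negUnipotent F ↔ N.1 * x * (N.1)⁻¹ ∈ D.posUnipotent F) : Std (twE θ N) := by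
  constructor
  · intro g
    rw [hU, twE_conj, h.neg]
    show (N.1 * g.1 * (N.1)⁻¹) ∈ D.negUnipotent F ↔ _
    rw [← hU]
  · intro g
    rw [hV, twE_conj, h.pos]
    show (N.1 * g.1 * (N.1)⁻¹) ∈ D.posUnipotent F ↔ _
    rw [← hV]

include C C2 C3 A in
/-- positive version of the permutation -/
theorem rootmap_pos {θ : ↥(D.group F) ≃* ↥(D.group F)} (h : Std θ) {i : ℕ} (hi : i < D.rank) :
    ∃ j, j < D.rank ∧ ∀ g : ↥(D.group F), (∃ t : F, g.1 = xG C (D.simple i) t) ↔ (∃ t : F, (θ g).1 = xG C (D.simple j) t) := by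
  obtain ⟨N, d, -, hU, hV, hc⟩ := w0_maps (F := F) C C2 C3
  have hs := twE_std h hU hV
  obtain ⟨i', hi', ei'⟩ := A.star2 i hi
  obtain ⟨j', hj', hm⟩ := rootmap_neg C C2 C3 hs hi'
  obtain ⟨j, hj, ej'⟩ := A.star1 j' hj'
  have key : ∀ (a b : ℕ), a < D.rank → applyW D T U.w0 (negF D (D.simple a)) = D.simple b → ∀ g : ↥(D.group F),
      (∃ t : F, g.1 = xG C (negF D (D.simple a)) t) ↔ (∃ t : F, N.1 * g.1 * (N.1)⁻¹ = xG C (D.simple b) t) := by
    intro a b ha eb g
    have hpa := C.simple_lt a ha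
    have hc' := hc _ (negF_lt hpa)
    rw [eb] at hc'
    constructor
    · rintro ⟨t, ht⟩
      exact ⟨_, by rw [ht, hc']⟩
    · rintro ⟨t, ht⟩
      refine ⟨((d (negF D (D.simple a)) : F))⁻¹ * t, ?_⟩
      have e := hc' (((d (negF D (D.simple a)) : F))⁻¹ * t)
      rw [← mul_assoc, mul_inv_cancel₀ (Units.ne_zero _), one_mul, ← ht] at e
      have e2 : N.1 * g.1 = N.1 * xG C (negF D (D.simple a)) (((d (negF D (D.simple a)) : F))⁻¹ * t) := by
        exact mul_right_cancel e.symm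
      exact mul_left_cancel e2
  refine ⟨j, hj, fun g => ?_⟩
  set g₀ : ↥(D.group F) := N⁻¹ * g * N with hg₀
  have e1 : N.1 * g₀.1 * (N.1)⁻¹ = g.1 := by
    show N.1 * ((N.1)⁻¹ * g.1 * N.1) * (N.1)⁻¹ = _
    group
  have e2 : N * g₀ * N⁻¹ = g := by
    rw [hg₀]
    group
  have h1 := key i' i hi' ei' g₀
  rw [e1] at h1
  rw [← h1, hm]
  have h2 := key j' j hj' ej' (twE θ N g₀)
  rw [twE_conj, e2] at h2
  exact h2

include C C2 C3 A in
/-- the two permutations agree -/
theorem rootmap {θ : ↥(D.group F) ≃* ↥(D.group F)} (h : Std θ) {i : ℕ} (hi : i < D.rank) :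
    ∃ j, j < D.rank ∧ (∀ g : ↥(D.group F), (∃ t : F, g.1 = xG C (D.simple i) t) ↔ (∃ t : F, (θ g).1 = xG C (D.simple j) t)) ∧
      (∀ g : ↥(D.group F), (∃ t : F, g.1 = xG C (negF D (D.simple i)) t) ↔ (∃ t : F, (θ g).1 = xG C (negF D (D.simple j)) t)) := by
  obtain ⟨j, hj, h1⟩ := rootmap_pos C C2 C3 A h hi
  obtain ⟨j', hj', h2⟩ := rootmap_neg C C2 C3 h hi
  suffices e : j = j' by
    subst e
    exact ⟨j, hj, h1, h2⟩
  by_contra hne
  have hp := C.simple_lt i hi
  let a : ↥(D.group F) := ⟨xG C (D.simple i) 1, xG_mem_group C hp _⟩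
  let b : ↥(D.group F) := ⟨xG C (negF D (D.simple i)) 1, xG_mem_group C (negF_lt hp) _⟩
  obtain ⟨τ, hτ⟩ := (h1 a).mp ⟨1, rfl⟩
  obtain ⟨κ, hκ⟩ := (h2 b).mp ⟨1, rfl⟩
  have e := comm_fund (F := F) C C2 C3 A hj hj' hne τ κ
  rw [← hτ, ← hκ] at e
  have e2 : θ (b * a) = θ (a * b) := Subtype.ext (by
    rw [map_mul, map_mul]
    exact e)
  have e3 : b * a = a * b := θ.injective e2
  have e4 := congrArg Subtype.val e3
  have := noncomm (F := F) C C2 C3 hi one_ne_zero (b := 1) e4.symm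
  exact one_ne_zero this

end

end Cfsg.Agent.H04.AutT
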