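import Cfsg.Agent.Lib.H04.Chev.Weyl
import Cfsg.Agent.Lib.H04.Chev.Gen
import Cfsg.Agent.Lib.H04.Chev.SL2
import Cfsg.Agent.Lib.H04.Chev.RootChar
import Cfsg.Agent.Lib.H04.Chev.Unip
import Cfsg.Agent.Lib.H04.Tw.Fix
import Cfsg.Agent.Lib.H04.Tf.Char2
import Cfsg.Agent.Lib.H02.BN2

/-!
# Moving an automorphism into a standard position
-/

set_option autoImplicit false
set_option linter.style.longLine false
set_option linter.unusedSimpArgs false
set_option linter.unusedSectionVars false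
set_option linter.unusedVariables false

open Cfsg.Lie Cfsg.Agent.H04.Chev Cfsg.Agent.H04.Tw

namespace Cfsg.Agent.H04.AutT

variable {D : ChevalleyDatum} {T : Tabs} {U : Tabs3}

section
variable (C : Checks D T) (C2 : Checks2 D T) (C3 : Checks3 D T U)
variable {F : Type*} [Field F]

/-- preservation of the two unipotent subgroups -/
structure Std (θ : ↥(D.group F) ≃* ↥(D.group F)) : Prop where
  pos : ∀ g : ↥(D.group F), (θ g).1 ∈ D.posUnipotent F ↔ g.1 ∈ D.posUnipotent F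
  neg : ∀ g : ↥(D.group F), (θ g).1 ∈ D.negUnipotent F ↔ g.1 ∈ D.negUnipotent F

/-- composition with a conjugation -/
def conjTr (θ : ↥(D.group F) ≃* ↥(D.group F)) (g : ↥(D.group F)) : ↥(D.group F) ≃* ↥(D.group F) :=
  θ.trans (MulAut.conj g⁻¹)

omit [Field F] in
lemma conjTr_apply [Field F] (θ : ↥(D.group F) ≃* ↥(D.group F)) (g y : ↥(D.group F)) : conjTr θ g y = g⁻¹ * θ y * g := by
  simp [conjTr, MulEquiv.trans_apply, MulAut.conj_apply]

include C C2 in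
lemma V_le_group : D.negUnipotent F ≤ D.group F := by
  rw [← pos_sup_neg C C2]
  exact le_sup_right

include C C2 C3 in
lemma U_inf_V {x : GL D.Idx F} (h1 : x ∈ D.posUnipotent F) (h2 : x ∈ D.negUnipotent F) : x = 1 := by
  have h3 : x ∈ D.borelSubgroup F ⊓ D.negUnipotent F := ⟨U_le_B h1, h2⟩
  rw [borel_inf_neg C C2 C3] at h3
  exact h3

include C C2 C3 in
/-- the second step of the positioning -/
theorem std_of_pos {θ : ↥(D.group F) ≃* ↥(D.group F)} (hU : ∀ g : ↥(D.group F), (θ g).1 ∈ D.posUnipotent F ↔ g.1 ∈ D.posUnipotent F) :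
    ∃ (x : ↥(D.group F)) (θ₂ : ↥(D.group F) ≃* ↥(D.group F)), (∀ y, θ y = x * θ₂ y * x⁻¹) ∧ Std θ₂ := by
  obtain ⟨n₀, hn₀, hV⟩ := exists_w0 (F := F) C C2 C3
  have hUG : D.posUnipotent F ≤ D.group F := U_le_group C
  have hVG : D.negUnipotent F ≤ D.group F := V_le_group C C2
  have hn₀G : n₀ ∈ D.group F := N_le_group C hn₀
  set N₀ : ↥(D.group F) := ⟨n₀, hn₀G⟩ with hN₀
  have hVmem : ∀ v : GL D.Idx F, v ∈ D.negUnipotent F ↔ ∃ w ∈ D.posUnipotent F, n₀ * w * n₀⁻¹ = v := by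
    intro v
    rw [← hV]
    simp [Subgroup.mem_map, MulAut.conj_apply]
  -- preimages in `U`
  have hpre : ∀ w ∈ D.posUnipotent F, ∃ W : ↥(D.group F), W.1 ∈ D.posUnipotent F ∧ (θ W).1 = w := by
    intro w hw
    refine ⟨θ.symm ⟨w, hUG hw⟩, ?_, by simp⟩
    rw [← hU]
    simpa using hw
  have hy₀ := (θ N₀).2
  obtain ⟨b, hb, n, hn, π, π', d, hA, u, hu, e⟩ := bruhat_exists C C2 C3 hy₀
  have huU : u ∈ D.posUnipotent F := RS_le_B' C C2 (fun r hr => hr.1) hu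
  have hbn : b ∈ Subgroup.normalizer (D.posUnipotent F : Set (GL D.Idx F)) := borel_le_normalizer_pos C C2 C3 hb
  have hbU : ∀ x ∈ D.posUnipotent F, b * x * b⁻¹ ∈ D.posUnipotent F := fun x hx => (Subgroup.mem_normalizer_iff.mp hbn x).mp hx
  -- an element of `U` in the conjugate
  have key : ∀ w ∈ D.posUnipotent F, b * n * w * (b * n)⁻¹ ∈ D.posUnipotent F → w = 1 := by
    intro w hw hz
    obtain ⟨W₁, hW₁, eW₁⟩ := hpre (u⁻¹ * w * u) (mul_mem (mul_mem (inv_mem huU) hw) huU)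
    have hE : (N₀ * W₁ * N₀⁻¹).1 ∈ D.negUnipotent F := (hVmem _).mpr ⟨W₁.1, hW₁, rfl⟩
    have e2 : (θ (N₀ * W₁ * N₀⁻¹)).1 = b * n * w * (b * n)⁻¹ := by
      rw [map_mul, map_mul, map_inv]
      show (θ N₀).1 * (θ W₁).1 * ((θ N₀).1)⁻¹ = _
      rw [eW₁, e]
      group
    have hE2 : (N₀ * W₁ * N₀⁻¹).1 ∈ D.posUnipotent F := by
      rw [← hU, e2]
      exact hz
    have h1 := U_inf_V C C2 C3 hE2 hE
    have h2 : N₀ * W₁ * N₀⁻¹ = 1 := Subtype.ext h1
    rw [h2, map_one] at e2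
    have h3 : (1 : GL D.Idx F) = b * n * w * (b * n)⁻¹ := e2
    have h4 : w = (b * n)⁻¹ * (b * n * w * (b * n)⁻¹) * (b * n) := by group
    rw [h4, ← h3]
    group
  have hneg : ∀ r, D.nroots / 2 ≤ r → r < D.nroots → π r < D.nroots / 2 := by
    intro r h1 h2
    by_contra h3
    have hlt := hA.lt r h2
    have hc := hA.conj r h2 (((d r : Fˣ) : F)⁻¹)
    have e3 : ((d r : Fˣ) : F) * ((d r : Fˣ) : F)⁻¹ = 1 := mul_inv_cancel₀ (Units.ne_zero _)
    rw [e3] at hc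
    have hw : xG C r (((d r : Fˣ) : F)⁻¹) ∈ D.posUnipotent F := xG_mem_pos C ((C2.pos_iff r).mpr ⟨h1, h2⟩) _
    have hx : xG C (π r) (1 : F) ∈ D.posUnipotent F := xG_mem_pos C ((C2.pos_iff _).mpr ⟨not_lt.mp h3, hlt⟩) _
    have e4 : b * n * xG C r (((d r : Fˣ) : F)⁻¹) * (b * n)⁻¹ = b * xG C (π r) 1 * b⁻¹ := by
      rw [← hc]
      group
    have h5 := key _ hw (by rw [e4]; exact hbU _ hx)
    have h6 := congrArg Units.val h5
    rw [xG_val, Units.val_one, x_eq_one_iff C C2 h2] at h6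
    exact inv_ne_zero (Units.ne_zero _) h6
  have hmap : (D.posUnipotent F).map (MulAut.conj n).toMonoidHom = D.negUnipotent F := by
    rw [pos_eq_RS C, neg_eq_RS C]
    apply hA.map_RS
    intro s hs
    rw [C2.pos_iff, C2.neg_iff]
    constructor
    · rintro ⟨h1, _⟩
      exact hneg s h1 hs
    · intro h1
      refine ⟨?_, hs⟩
      by_contra h2
      have h3 := negF_pos C2 (not_le.mp h2)
      have h4 := hneg _ h3 (negF_lt hs)
      rw [hA.neg s hs] at h4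
      have h5 := negF_pos C2 h1
      omega
  have hVn : ∀ v : GL D.Idx F, v ∈ D.negUnipotent F ↔ ∃ w ∈ D.posUnipotent F, n * w * n⁻¹ = v := by
    intro v
    rw [← hmap]
    simp [Subgroup.mem_map, MulAut.conj_apply]
  obtain ⟨u', hu', k, hk, rfl⟩ := (mem_borel_iff C C2 C3).mp hb
  have hkn : k ∈ Subgroup.normalizer (D.negUnipotent F : Set (GL D.Idx F)) := H_le_normalizer_neg C C2 C3 hk
  refine ⟨⟨u', hUG hu'⟩, conjTr θ ⟨u', hUG hu'⟩, ?_, ?_, ?_⟩
  · intro y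
    rw [conjTr_apply]
    group
  · intro g
    rw [conjTr_apply]
    show u'⁻¹ * (θ g).1 * u' ∈ _ ↔ _
    rw [← hU g]
    constructor
    · intro h1
      have := mul_mem (mul_mem hu' h1) (inv_mem hu')
      have e1 : u' * (u'⁻¹ * (θ g).1 * u') * u'⁻¹ = (θ g).1 := by group
      rwa [e1] at this
    · intro h1
      exact mul_mem (mul_mem (inv_mem hu') h1) hu'
  · intro g
    rw [conjTr_apply]
    show u'⁻¹ * (θ g).1 * u' ∈ _ ↔ _
    constructor
    · intro h1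
      have h2 := (Subgroup.mem_normalizer_iff.mp (inv_mem hkn) _).mp h1
      obtain ⟨w, hw, e5⟩ := (hVn _).mp h2
      obtain ⟨W₁, hW₁, eW₁⟩ := hpre (u⁻¹ * w * u) (mul_mem (mul_mem (inv_mem huU) hw) huU)
      have e6 : θ g = θ (N₀ * W₁ * N₀⁻¹) := by
        apply Subtype.ext
        rw [map_mul, map_mul, map_inv]
        show (θ g).1 = (θ N₀).1 * (θ W₁).1 * ((θ N₀).1)⁻¹
        rw [eW₁, e]
        have e7 : (θ g).1 = u' * k * (k⁻¹ * (u'⁻¹ * (θ g).1 * u') * k⁻¹⁻¹) * (u' * k)⁻¹ := by group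
        rw [e7, ← e5]
        group
      have e8 := θ.injective e6
      rw [e8]
      exact (hVmem _).mpr ⟨W₁.1, hW₁, rfl⟩
    · intro h1
      obtain ⟨w, hw, e5⟩ := (hVmem _).mp h1
      have hg : g = N₀ * ⟨w, hUG hw⟩ * N₀⁻¹ := Subtype.ext e5.symm
      have hW : (θ ⟨w, hUG hw⟩).1 ∈ D.posUnipotent F := (hU _).mpr hw
      have h3 : n * (u * (θ ⟨w, hUG hw⟩).1 * u⁻¹) * n⁻¹ ∈ D.negUnipotent F :=
        (hVn _).mpr ⟨_, mul_mem (mul_mem huU hW) (inv_mem huU), rfl⟩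
      have h4 := (Subgroup.mem_normalizer_iff.mp hkn _).mp h3
      have e9 : u'⁻¹ * (θ g).1 * u' = k * (n * (u * (θ ⟨w, hUG hw⟩).1 * u⁻¹) * n⁻¹) * k⁻¹ := by
        rw [hg, map_mul, map_mul, map_inv]
        show u'⁻¹ * ((θ N₀).1 * (θ ⟨w, hUG hw⟩).1 * ((θ N₀).1)⁻¹) * u' = _
        rw [e]
        group
      rw [e9]
      exact h4

include C C2 C3 in
/-- the positioning -/
theorem exists_std [Finite F] (p : ℕ) [Fact p.Prime] (P : Sylow p ↥(D.group F))
    (hP : (P : Subgroup ↥(D.group F)) = (D.posUnipotent F).subgroupOf (D.group F)) (θ : ↥(D.group F) ≃* ↥(D.group F)) :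
    ∃ (x : ↥(D.group F)) (θ₂ : ↥(D.group F) ≃* ↥(D.group F)), (∀ y, θ y = x * θ₂ y * x⁻¹) ∧ Std θ₂ := by
  classical
  have hcard : Nat.card ↥(((D.posUnipotent F).subgroupOf (D.group F)).map θ.toMonoidHom) = Nat.card ↥((D.posUnipotent F).subgroupOf (D.group F)) :=
    Subgroup.card_map_of_injective θ.injective
  let Q : Sylow p ↥(D.group F) := Sylow.ofCard (((D.posUnipotent F).subgroupOf (D.group F)).map θ.toMonoidHom) (by
    rw [hcard, ← hP]
    exact P.card_eq_multiplicity)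
  obtain ⟨g, hg⟩ := MulAction.exists_smul_eq ↥(D.group F) P Q
  have hmem : ∀ y : ↥(D.group F), y.1 ∈ D.posUnipotent F ↔ g⁻¹ * θ y * g ∈ (P : Subgroup ↥(D.group F)) := by
    intro y
    have h1 : θ y ∈ (Q : Subgroup ↥(D.group F)) ↔ y.1 ∈ D.posUnipotent F := by
      rw [Sylow.coe_ofCard]
      constructor
      · rintro ⟨z, hz, e⟩
        have := θ.injective e
        rw [← this]
        exact hz
      · intro h
        exact ⟨y, h, rfl⟩
    rw [← h1, ← hg, Sylow.coe_subgroup_smul, Subgroup.mem_pointwise_smul_iff_inv_smul_mem]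
    simp [MulAut.smul_def, MulAut.conj_inv_apply]
  have hU : ∀ y : ↥(D.group F), (conjTr θ g y).1 ∈ D.posUnipotent F ↔ y.1 ∈ D.posUnipotent F := by
    intro y
    rw [hmem y, conjTr_apply, hP]
    rfl
  obtain ⟨x, θ₂, h1, h2⟩ := std_of_pos C C2 C3 hU
  refine ⟨g * x, θ₂, ?_, h2⟩
  intro y
  have h3 := h1 y
  rw [conjTr_apply] at h3
  have h4 : θ y = g * (g⁻¹ * θ y * g) * g⁻¹ := by group
  rw [h4, h3]
  group

end

end Cfsg.Agent.H04.AutT
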