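import Cfsg.Agent.Lib.H04.Aut.Semil

/-!
# Reduction of a standard automorphism to a permutation and field automorphisms
-/

set_option autoImplicit false
set_option linter.style.longLine false
set_option linter.unusedSimpArgs false
set_option linter.unusedSectionVars false
set_option linter.unusedVariables false

open Cfsg.Lie Cfsg.Agent.H04.Chev Cfsg.Agent.H04.Tw Cfsg.Agent.H04.SL2Hom Cfsg.Agent.H02.BN

namespace Cfsg.Agent.H04.AutT

variable {D : ChevalleyDatum} {T : Tabs} {U : Tabs3}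

section
variable (C : Checks D T) (C2 : Checks2 D T) (C3 : Checks3 D T U) (A : AutTab D T U)
variable {F : Type*} [Field F]

include C C2 C3 A in
theorem reduce [Finite F] (hadd : ∀ r, D.nroots / 2 ≤ r → r < D.nroots → addRow D T r = true)
    {θ₂ : ↥(D.group F) ≃* ↥(D.group F)} (h : Std θ₂) :
    ∃ (π : Equiv.Perm (Fin D.rank)) (σ : Fin D.rank → F ≃+* F) (ψ₀ : ℕ → Fˣ) (θ₃ : ↥(D.group F) ≃* ↥(D.group F)),
      (∀ y, θ₂ y = diagE C C3 (fun i => tv U D ψ₀ (D.simple i)) (θ₃ y)) ∧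
      ∀ (g : ↥(D.group F)) (i : Fin D.rank) (t : F),
        (g.1 = xG C (D.simple i) t → (θ₃ g).1 = xG C (D.simple (π i)) (σ i t)) ∧
        (g.1 = xG C (negF D (D.simple i)) t → (θ₃ g).1 = xG C (negF D (D.simple (π i))) (σ i t)) := by
  have h1 : ∀ i : Fin D.rank, ∃ j : Fin D.rank,
      (∀ g : ↥(D.group F), (∃ t : F, g.1 = xG C (D.simple i) t) ↔ (∃ t : F, (θ₂ g).1 = xG C (D.simple j) t)) ∧
      (∀ g : ↥(D.group F), (∃ t : F, g.1 = xG C (negF D (D.simple i)) t) ↔ (∃ t : F, (θ₂ g).1 = xG C (negF D (D.simple j)) t)) := by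
    intro i
    obtain ⟨j, hj, a, b⟩ := rootmap C C2 C3 A h i.2
    exact ⟨⟨j, hj⟩, a, b⟩
  choose f hf1 hf2 using h1
  have hinj : Function.Injective f := by
    intro i i' e
    have hp := C.simple_lt i.1 i.2
    have hp' := C.simple_lt i'.1 i'.2
    let a : ↥(D.group F) := ⟨xG C (D.simple i) 1, xG_mem_group C hp _⟩
    have h2 := (hf1 i a).mp ⟨1, rfl⟩
    rw [e] at h2
    obtain ⟨t, ht⟩ := (hf1 i' a).mpr h2
    have h3 := xG_root_inj (F := F) C C2 (C3.simple_pos i.1 i.2) hp (C3.simple_pos i'.1 i'.2) hp' ht one_ne_zero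
    exact Fin.ext (A.simple_inj _ i.2 _ i'.2 h3)
  let π : Equiv.Perm (Fin D.rank) := Equiv.ofBijective f (Finite.injective_iff_bijective.mp hinj)
  have hπ : ∀ i, π i = f i := fun i => rfl
  have h2 := fun i : Fin D.rank => semil C C2 C3 (F := F) i.2 (f i).2 (hf1 i) (hf2 i)
  choose c σ hcσ using h2
  let ψ₀ : ℕ → Fˣ := fun j => if hj : j < D.rank then c (π.symm ⟨j, hj⟩) else 1
  have hψ₀ : ∀ i : Fin D.rank, ψ₀ (π i).1 = c i := by
    intro i
    simp [ψ₀]
  let d := diagE (F := F) C C3 (fun i => tv U D ψ₀ (D.simple i))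
  have hd : ∀ {r : ℕ}, r < D.nroots → ∀ (t : F) (g : ↥(D.group F)), g.1 = xG C r t → (d g).1 = xG C r ((tv U D ψ₀ r : Fˣ) * t) :=
    fun hr t g hg => diagE_apply C C3 ψ₀ hr t g hg
  refine ⟨π, σ, ψ₀, θ₂.trans d.symm, fun y => by simp [d], ?_⟩
  intro g i t
  have hq := C.simple_lt (π i).1 (π i).2
  constructor
  · intro hg
    have h3 := (hcσ i g t).1 hg
    let g' : ↥(D.group F) := ⟨xG C (D.simple (π i)) (σ i t), xG_mem_group C hq _⟩
    have h4 : d g' = θ₂ g := by
      apply Subtype.ext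
      rw [hd hq _ g' rfl, h3, tv_simple C3 (π i).2, hψ₀, hπ]
    show (d.symm (θ₂ g)).1 = _
    rw [← h4, MulEquiv.symm_apply_apply]
  · intro hg
    have h3 := (hcσ i g t).2 hg
    let g' : ↥(D.group F) := ⟨xG C (negF D (D.simple (π i))) (σ i t), xG_mem_group C (negF_lt hq) _⟩
    have h4 : d g' = θ₂ g := by
      apply Subtype.ext
      rw [hd (negF_lt hq) _ g' rfl, h3, tv_neg C3 hq, tv_simple C3 (π i).2, hψ₀, hπ]
    show (d.symm (θ₂ g)).1 = _
    rw [← h4, MulEquiv.symm_apply_apply]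

include C C2 C3 A in
/-- commutation and bonds -/
theorem comm_iff {i j : ℕ} (hi : i < D.rank) (hj : j < D.rank) (hij : i ≠ j) :
    (∀ t u : F, xG C (D.simple j) u * xG C (D.simple i) t = xG C (D.simple i) t * xG C (D.simple j) u) ↔ D.bonds i j = 0 := by
  have hpi := C.simple_lt i hi
  have hpj := C.simple_lt j hj
  constructor
  · intro hc
    by_contra hb
    have e3 : nG C (D.simple j) (1 : F) = xG C (D.simple j) 1 * xG C (negF D (D.simple j)) (-1⁻¹) * xG C (D.simple j) 1 := by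
      simp [nG, Cfsg.Lie.ChevalleyDatum.nWord, mul_assoc, neg_eq C.neg hpj]
    have hc1 : ∀ u : F, Commute (xG C (D.simple j) u) (xG C (D.simple i) (1 : F)) := fun u => hc 1 u
    have hc2 : ∀ u : F, Commute (xG C (negF D (D.simple j)) u) (xG C (D.simple i) (1 : F)) := fun u => comm_fund C C2 C3 A hi hj hij 1 u
    have hc3 : Commute (nG C (D.simple j) (1 : F)) (xG C (D.simple i) (1 : F)) := by
      rw [e3]
      exact ((hc1 1).mul_left (hc2 _)).mul_left (hc1 1)
    have e4 := conj_nG (F := F) C hj hpi 1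
    rw [hc3.eq] at e4
    have e5 := mul_right_cancel e4
    obtain ⟨h6, h7⟩ := A.w_pos i hi j hj hij
    have h8 := xG_root_inj (F := F) C C2 (C3.simple_pos i hi) hpi h6 h7 e5 one_ne_zero
    exact A.w_ne i hi j hj hij hb h8.symm
  · intro hb t u
    have h1 : D.simple j ≠ D.simple i := fun e => hij (A.simple_inj j hj i hi e).symm
    have h2 : D.simple j ≠ negF D (D.simple i) := by
      have := negF_neg C2 (C3.simple_pos i hi) hpi
      have := C3.simple_pos j hj
      omega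
    have e := xG_comm (F := F) C hpi hpj h1 h2 t u
    have e2 : D.commWord F (D.simple i) (D.simple j) t u = [] := by
      unfold Cfsg.Lie.ChevalleyDatum.commWord
      rw [A.comm0 i hi j hj hij hb]
      rfl
    rw [e2] at e
    simpa using e

include C C2 C3 A in
/-- a form-preserving automorphism preserves commutation -/
theorem bonds_transfer [Finite F] {θ₃ : ↥(D.group F) ≃* ↥(D.group F)} {π : Equiv.Perm (Fin D.rank)} {σ : Fin D.rank → F ≃+* F}
    (h : ∀ (g : ↥(D.group F)) (i : Fin D.rank) (t : F),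
        (g.1 = xG C (D.simple i) t → (θ₃ g).1 = xG C (D.simple (π i)) (σ i t)) ∧
        (g.1 = xG C (negF D (D.simple i)) t → (θ₃ g).1 = xG C (negF D (D.simple (π i))) (σ i t)))
    (i j : Fin D.rank) (hij : i ≠ j) : D.bonds i j = 0 ↔ D.bonds (π i) (π j) = 0 := by
  have hne : (i : ℕ) ≠ j := fun e => hij (Fin.ext e)
  have hne' : ((π i : Fin D.rank) : ℕ) ≠ π j := fun e => hij (π.injective (Fin.ext e))
  rw [← comm_iff (F := F) C C2 C3 A i.2 j.2 hne, ← comm_iff (F := F) C C2 C3 A (π i).2 (π j).2 hne']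
  have hpi := C.simple_lt i.1 i.2
  have hpj := C.simple_lt j.1 j.2
  let X : F → ↥(D.group F) := fun t => ⟨xG C (D.simple i) t, xG_mem_group C hpi t⟩
  let Y : F → ↥(D.group F) := fun t => ⟨xG C (D.simple j) t, xG_mem_group C hpj t⟩
  have hX : ∀ t, (θ₃ (X t)).1 = xG C (D.simple (π i)) (σ i t) := fun t => (h (X t) i t).1 rfl
  have hY : ∀ t, (θ₃ (Y t)).1 = xG C (D.simple (π j)) (σ j t) := fun t => (h (Y t) j t).1 rfl
  constructor
  · intro hc t' u'
    obtain ⟨t, rfl⟩ := (σ i).surjective t'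
    obtain ⟨u, rfl⟩ := (σ j).surjective u'
    rw [← hX, ← hY]
    have e : Y u * X t = X t * Y u := Subtype.ext (hc t u)
    have e2 := congrArg (fun g => (θ₃ g).1) e
    simp only [map_mul] at e2
    exact e2
  · intro hc t u
    have e : θ₃ (Y u * X t) = θ₃ (X t * Y u) := by
      apply Subtype.ext
      simp only [map_mul]
      show (θ₃ (Y u)).1 * (θ₃ (X t)).1 = (θ₃ (X t)).1 * (θ₃ (Y u)).1
      rw [hX, hY]
      exact hc _ _
    exact congrArg Subtype.val (θ₃.injective e)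

include C C3 in
lemma hG_conj_x {i s : ℕ} (hi : i < D.rank) (hs : s < D.nroots) {c : F} (hc : c ≠ 0) (t : F) :
    hG C (D.simple i) c * xG C s t = xG C s (c ^ (D.cartan i s) * t) * hG C (D.simple i) c := by
  apply Units.ext
  simp only [Units.val_mul, hG_val, xG_val]
  exact hMat_conj_x C C3 hi hs hc t

include C C2 C3 in
/-- the relation coming from the action of the torus -/
theorem torus_rel {θ₃ : ↥(D.group F) ≃* ↥(D.group F)} {π : Equiv.Perm (Fin D.rank)} {σ : Fin D.rank → F ≃+* F}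
    (h : ∀ (g : ↥(D.group F)) (i : Fin D.rank) (t : F),
        (g.1 = xG C (D.simple i) t → (θ₃ g).1 = xG C (D.simple (π i)) (σ i t)) ∧
        (g.1 = xG C (negF D (D.simple i)) t → (θ₃ g).1 = xG C (negF D (D.simple (π i))) (σ i t)))
    (i j : Fin D.rank) (c : F) (hc : c ≠ 0) :
    (σ i c) ^ (D.cartan (π i) (D.simple (π j))) = (σ j c) ^ (D.cartan i (D.simple j)) := by
  have hpi := C.simple_lt i.1 i.2
  have hpj := C.simple_lt j.1 j.2
  have hqi := C.simple_lt (π i).1 (π i).2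
  have hqj := C.simple_lt (π j).1 (π j).2
  let X : F → ↥(D.group F) := fun t => ⟨xG C (D.simple i) t, xG_mem_group C hpi t⟩
  let X' : F → ↥(D.group F) := fun t => ⟨xG C (negF D (D.simple i)) t, xG_mem_group C (negF_lt hpi) t⟩
  let Y : F → ↥(D.group F) := fun t => ⟨xG C (D.simple j) t, xG_mem_group C hpj t⟩
  have hX : ∀ t, (θ₃ (X t)).1 = xG C (D.simple (π i)) (σ i t) := fun t => (h (X t) i t).1 rfl
  have hX' : ∀ t, (θ₃ (X' t)).1 = xG C (negF D (D.simple (π i))) (σ i t) := fun t => (h (X' t) i t).2 rfl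
  have hY : ∀ t, (θ₃ (Y t)).1 = xG C (D.simple (π j)) (σ j t) := fun t => (h (Y t) j t).1 rfl
  have enG : ∀ {r : ℕ} (hr : r < D.nroots) (t : F), nG C r t = xG C r t * xG C (negF D r) (-t⁻¹) * xG C r t := by
    intro r hr t
    simp [nG, Cfsg.Lie.ChevalleyDatum.nWord, mul_assoc, neg_eq C.neg hr]
  let Nn : F → ↥(D.group F) := fun t => X t * X' (-t⁻¹) * X t
  have hNn : ∀ t, (Nn t).1 = nG C (D.simple i) t := fun t => (enG hpi t).symm
  have hNn' : ∀ t, (θ₃ (Nn t)).1 = nG C (D.simple (π i)) (σ i t) := by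
    intro t
    rw [enG hqi]
    simp only [Nn, map_mul]
    show (θ₃ (X t)).1 * (θ₃ (X' _)).1 * (θ₃ (X t)).1 = _
    rw [hX, hX', map_neg, map_inv₀]
  let Hh : F → ↥(D.group F) := fun t => Nn t * Nn (-1)
  have hHh : ∀ t, (Hh t).1 = hG C (D.simple i) t := by
    intro t
    rw [hG_eq C]
    show (Nn t).1 * (Nn (-1)).1 = _
    rw [hNn, hNn]
  have hHh' : ∀ t, (θ₃ (Hh t)).1 = hG C (D.simple (π i)) (σ i t) := by
    intro t
    rw [hG_eq C]
    simp only [Hh, map_mul]
    show (θ₃ (Nn t)).1 * (θ₃ (Nn (-1))).1 = _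
    rw [hNn', hNn', map_neg, map_one]
  have e0 : Hh c * Y 1 = Y (c ^ (D.cartan i (D.simple j)) * 1) * Hh c := by
    apply Subtype.ext
    show (Hh c).1 * (Y 1).1 = (Y _).1 * (Hh c).1
    rw [hHh]
    exact hG_conj_x C C3 i.2 hpj hc 1
  have e1 := congrArg (fun g => (θ₃ g).1) e0
  simp only [map_mul] at e1
  have e2 : ∀ a b : ↥(D.group F), (a * b).1 = a.1 * b.1 := fun a b => rfl
  simp only [e2, hHh', hY] at e1
  have e3 := hG_conj_x C C3 (π i).2 hqj (c := σ i c) ((map_ne_zero _).mpr hc) (σ j 1)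
  rw [e3] at e1
  have e4 := mul_right_cancel e1
  have e5 := Tf.xG_param_inj C C2 hqj e4
  simp only [map_one, mul_one, map_zpow₀] at e5
  exact e5

end

end Cfsg.Agent.H04.AutT
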