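import Cfsg.Agent.Lib.H04.Aut.Alg

/-!
# Rank one relations inside the group
-/

set_option autoImplicit false
set_option linter.style.longLine false
set_option linter.unusedSimpArgs false
set_option linter.unusedSectionVars false
set_option linter.unusedVariables false

open Cfsg.Lie Cfsg.Agent.H04.Chev Cfsg.Agent.H04.Tw Cfsg.Agent.H04.SL2Hom

namespace Cfsg.Agent.H04.AutT

variable {D : ChevalleyDatum} {T : Tabs} {U : Tabs3}

section
variable (C : Checks D T) (C2 : Checks2 D T) (C3 : Checks3 D T U)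
variable {F : Type*} [Field F]

include C3 in
lemma rel1 {r : ℕ} (hr : r < D.nroots) {t : F} (ht : t ≠ 0) (s : F) :
    xG C r t * xG C (negF D r) (-t⁻¹) * xG C r t * xG C r s =
      xG C (negF D r) (-s * t⁻¹ * t⁻¹) * (xG C r t * xG C (negF D r) (-t⁻¹) * xG C r t) := by
  obtain ⟨φ, h1, h2⟩ := exists_sl2 (F := F) C C3 r hr
  have := congrArg φ (I1 ht s)
  simpa only [map_mul, h1, h2] using this

include C C2 C3 in
lemma up_eq_lo {i : ℕ} (hi : i < D.rank) {s w : F} (h : xG C (D.simple i) s = xG C (negF D (D.simple i)) w) : s = 0 := by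
  have hp := C.simple_lt i hi
  have hp0 := C3.simple_pos i hi
  have h1 : xG C (D.simple i) s ∈ D.posUnipotent F := xG_mem_pos C ((C2.pos_iff _).mpr ⟨hp0, hp⟩) _
  have h2 : xG C (D.simple i) s ∈ D.negUnipotent F := by
    rw [h]
    exact xG_mem_neg C ((C2.neg_iff _).mpr (negF_neg C2 hp0 hp)) _
  have h3 := U_inf_V C C2 C3 h1 h2
  have h4 := congrArg Units.val h3
  rw [xG_val, Units.val_one, x_eq_one_iff C C2 hp] at h4
  exact h4

include C C2 C3 in
lemma rel2 {i : ℕ} (hi : i < D.rank) {a b w : F} (ha : a ≠ 0)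
    (h : xG C (D.simple i) a * xG C (negF D (D.simple i)) b * xG C (D.simple i) a * xG C (D.simple i) 1 =
      xG C (negF D (D.simple i)) w * (xG C (D.simple i) a * xG C (negF D (D.simple i)) b * xG C (D.simple i) a)) :
    b = -a⁻¹ := by
  have hp := C.simple_lt i hi
  obtain ⟨φ, h1, h2⟩ := exists_sl2 (F := F) C C3 _ hp
  by_cases hb : b = 0
  · exfalso
    subst hb
    have e1 : xG C (negF D (D.simple i)) (0 : F) = 1 := xG_zero C _
    rw [e1, mul_one, xG_add, xG_add] at h
    have e2 : xG C (D.simple i) (a + a + 1) = xG C (negF D (D.simple i)) w * xG C (D.simple i) (a + a) := h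
    have e3 : xG C (D.simple i) (1 : F) = xG C (negF D (D.simple i)) w := by
      rw [← mul_inv_eq_iff_eq_mul.mpr e2, xG_inv, xG_add]
      congr 1
      ring
    exact one_ne_zero (up_eq_lo C C2 C3 hi e3)
  · by_cases hc : a + b⁻¹ = 0
    · have : b⁻¹ = -a := by
        rw [eq_neg_iff_add_eq_zero, add_comm]
        exact hc
      rw [← inv_inv b, this, inv_neg]
    · exfalso
      have h3 := congrArg φ (I2 a b (a + b⁻¹) hb rfl hc)
      simp only [map_mul, h1, h2] at h3
      rw [h] at h3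
      have h4 := mul_right_cancel h3
      have h5 : xG C (D.simple i) ((a + b⁻¹) * (a + b⁻¹) * (b * b)) = xG C (negF D (D.simple i)) (-(a + b⁻¹)⁻¹ + w + (a + b⁻¹)⁻¹) := by
        rw [← xG_add, ← xG_add, h4, ← xG_inv]
        group
      have h6 := up_eq_lo C C2 C3 hi h5
      exact (mul_ne_zero (mul_ne_zero hc hc) (mul_ne_zero hb hb)) h6

include C C2 C3 in
lemma noncomm {i : ℕ} (hi : i < D.rank) {a b : F} (ha : a ≠ 0)
    (h : xG C (D.simple i) a * xG C (negF D (D.simple i)) b = xG C (negF D (D.simple i)) b * xG C (D.simple i) a) : b = 0 := by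
  have hp := C.simple_lt i hi
  obtain ⟨φ, h1, h2⟩ := exists_sl2 (F := F) C C3 _ hp
  have h3 := congrArg φ (I4 ha b)
  simp only [map_mul, h1, h2] at h3
  rw [h] at h3
  have h4 := mul_right_cancel h3
  have h5 : xG C (D.simple i) (-(a * a * b)) = xG C (negF D (D.simple i)) (-a⁻¹ + b + a⁻¹) := by
    have e : xG C (negF D (D.simple i)) (-a⁻¹) = (xG C (negF D (D.simple i)) a⁻¹)⁻¹ := (xG_inv C _ _).symm
    rw [← xG_add, ← xG_add, h4, e]
    group
  have h6 := up_eq_lo C C2 C3 hi h5
  rw [neg_eq_zero] at h6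
  simpa [ha] using h6

end

end Cfsg.Agent.H04.AutT
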