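import Cfsg.Agent.Lib.H04.Aut.Perm
import Cfsg.Agent.Lib.H04.Chev.RootChar

/-!
# The semilinear form of a standard automorphism
-/

set_option autoImplicit false
set_option linter.style.longLine false
set_option linter.unusedSimpArgs false
set_option linter.unusedSectionVars false
set_option linter.unusedVariables false

open Cfsg.Lie Cfsg.Agent.H04.Chev Cfsg.Agent.H04.Tw Cfsg.Agent.H04.SL2Hom Cfsg.Agent.H02.BN

namespace Cfsg.Agent.H04.AutT

variable {D : ChevalleyDatum} {T : Tabs} {U : Tabs3}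

section
variable (C : Checks D T) (C2 : Checks2 D T) (C3 : Checks3 D T U)
variable {F : Type*} [Field F]

include C C2 C3 in
theorem semil [Finite F] {θ : ↥(D.group F) ≃* ↥(D.group F)} {i j : ℕ} (hi : i < D.rank) (hj : j < D.rank)
    (hp : ∀ g : ↥(D.group F), (∃ t : F, g.1 = xG C (D.simple i) t) ↔ (∃ t : F, (θ g).1 = xG C (D.simple j) t))
    (hn : ∀ g : ↥(D.group F), (∃ t : F, g.1 = xG C (negF D (D.simple i)) t) ↔ (∃ t : F, (θ g).1 = xG C (negF D (D.simple j)) t)) :
    ∃ (c : Fˣ) (σ : F ≃+* F), ∀ (g : ↥(D.group F)) (t : F),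
      (g.1 = xG C (D.simple i) t → (θ g).1 = xG C (D.simple j) ((c : F) * σ t)) ∧
      (g.1 = xG C (negF D (D.simple i)) t → (θ g).1 = xG C (negF D (D.simple j)) (((c⁻¹ : Fˣ) : F) * σ t)) := by
  have hpi := C.simple_lt i hi
  have hpj := C.simple_lt j hj
  let X : F → ↥(D.group F) := fun t => ⟨xG C (D.simple i) t, xG_mem_group C hpi t⟩
  let Y : F → ↥(D.group F) := fun t => ⟨xG C (negF D (D.simple i)) t, xG_mem_group C (negF_lt hpi) t⟩
  have hX1 : ∀ s t, X (s + t) = X s * X t := fun s t => Subtype.ext (xG_add C _ s t).symm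
  have hY1 : ∀ s t, Y (s + t) = Y s * Y t := fun s t => Subtype.ext (xG_add C _ s t).symm
  choose φ hφ using fun t => (hp (X t)).mp ⟨t, rfl⟩
  choose ψ hψ using fun t => (hn (Y t)).mp ⟨t, rfl⟩
  have hφa : ∀ x y, φ (x + y) = φ x + φ y := by
    intro x y
    apply Tf.xG_param_inj C C2 hpj
    rw [← xG_add, ← hφ, ← hφ, ← hφ, hX1, map_mul]
    rfl
  have hψa : ∀ x y, ψ (x + y) = ψ x + ψ y := by
    intro x y
    apply Tf.xG_param_inj C C2 (negF_lt hpj)
    rw [← xG_add, ← hψ, ← hψ, ← hψ, hY1, map_mul]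
    rfl
  have hφinj : Function.Injective φ := by
    intro x y e
    have e1 : θ (X x) = θ (X y) := Subtype.ext (by rw [hφ, hφ, e])
    have e2 := θ.injective e1
    exact Tf.xG_param_inj C C2 hpi (congrArg Subtype.val e2)
  have hb : Function.Bijective φ := Finite.injective_iff_bijective.mp hφinj
  have hφ0 : φ 0 = 0 := by
    have := hφa 0 0
    simpa using this
  have hψ0 : ψ 0 = 0 := by
    have := hψa 0 0
    simpa using this
  have hψn : ∀ x, ψ (-x) = -ψ x := by
    intro x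
    have h1 := hψa x (-x)
    rw [add_neg_cancel, hψ0] at h1
    exact (neg_eq_of_add_eq_zero_right h1.symm).symm
  have hrel : ∀ t, t ≠ 0 → ∀ s, ψ (s * t⁻¹ * t⁻¹) = φ s * (φ t)⁻¹ * (φ t)⁻¹ := by
    intro t ht s
    have hφt : φ t ≠ 0 := fun e => ht (hφinj (e.trans hφ0.symm))
    have E : ∀ s, xG C (D.simple j) (φ t) * xG C (negF D (D.simple j)) (ψ (-t⁻¹)) * xG C (D.simple j) (φ t) * xG C (D.simple j) (φ s) =
        xG C (negF D (D.simple j)) (ψ (-s * t⁻¹ * t⁻¹)) * (xG C (D.simple j) (φ t) * xG C (negF D (D.simple j)) (ψ (-t⁻¹)) * xG C (D.simple j) (φ t)) := by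
      intro s
      have e0 : X t * Y (-t⁻¹) * X t * X s = Y (-s * t⁻¹ * t⁻¹) * (X t * Y (-t⁻¹) * X t) := Subtype.ext (rel1 C C3 hpi ht s)
      have e1 := congrArg (fun g => (θ g).1) e0
      simp only [map_mul] at e1
      have e2 : ∀ a b : ↥(D.group F), (a * b).1 = a.1 * b.1 := fun a b => rfl
      simp only [e2, hφ, hψ] at e1
      exact e1
    obtain ⟨s₁, hs₁⟩ := hb.2 1
    have hb' : ψ (-t⁻¹) = -(φ t)⁻¹ := by
      have := E s₁
      rw [hs₁] at this
      exact rel2 C C2 C3 hj hφt this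
    have e3 := E s
    rw [hb', rel1 C C3 hpj hφt (φ s)] at e3
    have e4 := mul_right_cancel e3
    have e5 := Tf.xG_param_inj C C2 (negF_lt hpj) e4
    have e6 : -s * t⁻¹ * t⁻¹ = -(s * t⁻¹ * t⁻¹) := by ring
    rw [e6, hψn] at e5
    have : ψ (s * t⁻¹ * t⁻¹) = -(-φ s * (φ t)⁻¹ * (φ t)⁻¹) := by
      rw [e5, neg_neg]
    rw [this]
    ring
  obtain ⟨c, σ, hcσ⟩ := ring_of hφa hb hrel
  refine ⟨c, σ, fun g t => ⟨fun h => ?_, fun h => ?_⟩⟩
  · have e : g = X t := Subtype.ext h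
    rw [e, hφ, (hcσ t).1]
  · have e : g = Y t := Subtype.ext h
    rw [e, hψ, (hcσ t).2]

include C C3 in
lemma tv_rootChar (ψ : ℕ → Fˣ) : D.IsRootCharacter (tv U D ψ) := by
  constructor
  · intro r hr
    have e : D.neg r = negF D r := C.neg r hr
    rw [e, tv_neg C3 hr]
  · intro r s k hr hs he
    obtain ⟨hp, hss, -, -, y, hy, hy1, hy2⟩ := chainRoot_spec C C3 le_rfl he
    have h4 := tv_col C3 hp (by omega : s < D.nroots + D.rank) hy ψ
    rw [hy1, hy2, pow_one] at h4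
    rw [h4, mul_comm]

include C C3 in
lemma conj_mem_group (ψ : ℕ → Fˣ) {g : GL D.Idx F} (hg : g ∈ D.group F) : torusG U D ψ * g * (torusG U D ψ)⁻¹ ∈ D.group F := by
  rw [group_eq C] at hg ⊢
  induction hg using Subgroup.closure_induction with
  | mem x hx =>
    obtain ⟨r, t, hr, rfl⟩ := hx
    rw [torusG_conj C C3 hr]
    exact Subgroup.subset_closure ⟨r, _, hr, rfl⟩
  | one => simp
  | mul a b _ _ ha hb =>
    have : torusG U D ψ * (a * b) * (torusG U D ψ)⁻¹ = (torusG U D ψ * a * (torusG U D ψ)⁻¹) * (torusG U D ψ * b * (torusG U D ψ)⁻¹) := by group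
    rw [this]
    exact mul_mem ha hb
  | inv a _ ha =>
    have : torusG U D ψ * a⁻¹ * (torusG U D ψ)⁻¹ = (torusG U D ψ * a * (torusG U D ψ)⁻¹)⁻¹ := by group
    rw [this]
    exact inv_mem ha

/-- conjugation by a diagonal element as an automorphism -/
noncomputable def diagE (C : Checks D T) (C3 : Checks3 D T U) (ψ : ℕ → Fˣ) : ↥(D.group F) ≃* ↥(D.group F) where
  toFun g := ⟨torusG U D ψ * g.1 * (torusG U D ψ)⁻¹, conj_mem_group C C3 ψ g.2⟩
  invFun g := ⟨(torusG U D ψ)⁻¹ * g.1 * torusG U D ψ, by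
    have := conj_mem_group C C3 (ψ⁻¹) g.2
    rw [torusG_inv, inv_inv] at this
    exact this⟩
  left_inv g := Subtype.ext (by simp only; group)
  right_inv g := Subtype.ext (by simp only; group)
  map_mul' a b := Subtype.ext (by
    show torusG U D ψ * (a.1 * b.1) * (torusG U D ψ)⁻¹ = (torusG U D ψ * a.1 * (torusG U D ψ)⁻¹) * (torusG U D ψ * b.1 * (torusG U D ψ)⁻¹)
    group)

include C C3 in
theorem diagE_isDiag (hadd : ∀ r, D.nroots / 2 ≤ r → r < D.nroots → addRow D T r = true) (ψ₀ : ℕ → Fˣ) :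
    D.IsDiagonalAut (diagE C C3 (fun i => tv U D ψ₀ (D.simple i))) := by
  set χ := tv U D ψ₀ with hχd
  have hχ : D.IsRootCharacter χ := tv_rootChar C C3 ψ₀
  refine ⟨χ, hχ, fun g => ?_⟩
  have h1 : D.charDiag F χ * D.charDiag F (fun s => (χ s)⁻¹) = 1 := by
    unfold ChevalleyDatum.charDiag
    rw [Matrix.diagonal_mul_diagonal, ← Matrix.diagonal_one]
    congr 1
    funext i
    rcases i with i | s <;> simp
  have h2 : ((torusG U D (fun i => χ (D.simple i)) : GL D.Idx F) : Matrix D.Idx D.Idx F) = D.charDiag F χ := by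
    rw [torusG_val, charDiag_eq C C3 hχ hadd]
  have h3 : (((torusG U D (fun i => χ (D.simple i)))⁻¹ : GL D.Idx F) : Matrix D.Idx D.Idx F) = D.charDiag F (fun s => (χ s)⁻¹) := by
    have h4 : ((torusG U D (fun i => χ (D.simple i)) : GL D.Idx F) : Matrix D.Idx D.Idx F) * D.charDiag F (fun s => (χ s)⁻¹) = 1 := by
      rw [h2, h1]
    have h5 := congrArg (fun M => (((torusG U D (fun i => χ (D.simple i)))⁻¹ : GL D.Idx F) : Matrix D.Idx D.Idx F) * M) h4
    simp only [mul_one, ← mul_assoc, Units.inv_mul, one_mul] at h5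
    exact h5.symm
  show ((torusG U D (fun i => χ (D.simple i)) * g.1 * (torusG U D (fun i => χ (D.simple i)))⁻¹ : GL D.Idx F) : Matrix D.Idx D.Idx F) = _
  rw [Units.val_mul, Units.val_mul, h2, h3]

include C C3 in
/-- the action on root elements -/
lemma diagE_apply (ψ₀ : ℕ → Fˣ) {r : ℕ} (hr : r < D.nroots) (t : F) (g : ↥(D.group F)) (h : g.1 = xG C r t) :
    (diagE C C3 (fun i => tv U D ψ₀ (D.simple i)) g).1 = xG C r ((tv U D ψ₀ r : Fˣ) * t) := by
  show torusG U D _ * g.1 * (torusG U D _)⁻¹ = _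
  rw [h, torusG_conj C C3 hr]
  congr 2
  have e : tv U D (fun i => tv U D ψ₀ (D.simple i)) r = tv U D ψ₀ r := by
    conv_lhs => unfold tv
    conv_rhs => unfold tv
    apply Finset.prod_congr rfl
    intro j hj
    have := tv_simple C3 (Finset.mem_range.mp hj) ψ₀
    show (tv U D ψ₀ (D.simple j)) ^ U.cofI r j = _
    rw [this]
  rw [e]

end

end Cfsg.Agent.H04.AutT
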